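import Mathlib

set_option autoImplicit false

namespace Cfsg.Agent.Lib.DLS
open Module Function
open scoped commutatorElement

universe u v w

/-- the base group embedding -/
def L1base (D : Type u) (Q : Type v) [Group D] [Group Q] : (Q → D) →* D ≀ᵣ Q where
  toFun f := ⟨f, 1⟩
  map_one' := rfl
  map_mul' a b := by ext <;> simp

theorem L1_le {D : Type u} {Q : Type v} [Group D] [Group Q] [Nontrivial Q] (j : ℕ) :
    derivedSeries D j ≤
      ((derivedSeries (D ≀ᵣ Q) (j + 1)).comap (L1base D Q)).map (Pi.evalMonoidHom (fun _ : Q => D) 1) := by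
  classical
  induction j with
  | zero =>
    intro d _
    obtain ⟨a, ha⟩ := exists_ne (1 : Q)
    refine ⟨fun x => (Pi.mulSingle 1 d : Q → D) x * (Pi.mulSingle 1 d⁻¹ : Q → D) (a⁻¹ * x), ?_, ?_⟩
    · show L1base D Q _ ∈ derivedSeries (D ≀ᵣ Q) (0 + 1)
      rw [derivedSeries_succ, derivedSeries_zero]
      have h1 : ⁅L1base D Q (Pi.mulSingle 1 d), (RegularWreathProduct.inl a : D ≀ᵣ Q)⁆ ∈
          ⁅(⊤ : Subgroup (D ≀ᵣ Q)), ⊤⁆ :=
        Subgroup.commutator_mem_commutator (Subgroup.mem_top _) (Subgroup.mem_top _)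
      convert h1 using 1
      rw [commutatorElement_def]
      ext x
      · simp only [L1base, MonoidHom.coe_mk, OneHom.coe_mk, RegularWreathProduct.mul_left,
          RegularWreathProduct.inv_left, RegularWreathProduct.left_inl,
          RegularWreathProduct.mul_right, RegularWreathProduct.right_inl,
          RegularWreathProduct.inv_right, Pi.mul_apply, Pi.inv_apply, Pi.one_apply]
        by_cases hx : a⁻¹ * x = 1
        · simp [hx, Pi.mulSingle_apply]
        · simp [hx, Pi.mulSingle_apply]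
      · simp [L1base]
    · simp [Pi.mulSingle_apply, ha]
  | succ j ih =>
    rw [derivedSeries_succ]
    refine (Subgroup.commutator_mono ih ih).trans ?_
    rw [← Subgroup.map_commutator]
    apply Subgroup.map_mono
    rw [← Subgroup.map_le_iff_le_comap, Subgroup.map_commutator, derivedSeries_succ _ (j + 1)]
    exact Subgroup.commutator_mono (Subgroup.map_comap_le _ _) (Subgroup.map_comap_le _ _)

/-- L1 -/
theorem derivedSeries_wreath_ne_bot {D : Type u} {Q : Type v} [Group D] [Group Q] [Nontrivial Q]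
    (j : ℕ) (h : derivedSeries D j ≠ ⊥) : derivedSeries (D ≀ᵣ Q) (j + 1) ≠ ⊥ := by
  obtain ⟨⟨d, hd⟩, hd1'⟩ := (Subgroup.ne_bot_iff_exists_ne_one).1 h
  have hd1 : d ≠ 1 := fun h => hd1' (Subtype.ext h)
  obtain ⟨f, hf, hfd⟩ := L1_le (Q := Q) j hd
  intro hbot
  have h1 : L1base D Q f ∈ derivedSeries (D ≀ᵣ Q) (j + 1) := hf
  rw [hbot, Subgroup.mem_bot] at h1
  apply hd1
  rw [← hfd]
  have h2 := congrArg (fun w : D ≀ᵣ Q => w.left 1) h1
  simpa [L1base] using h2

end Cfsg.Agent.Lib.DLS
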