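import Mathlib

set_option autoImplicit false

namespace Cfsg.Agent.Lib.DLS
open Module Function

universe u v w

/-- the monomial matrix of an element of the wreath product -/
def L2mat {D : Type u} {Q : Type v} [Group D] [Group Q] [DecidableEq Q]
    {ι : Type v} {F : Type w} [Field F] (ρ : D → Matrix ι ι F) (a : D ≀ᵣ Q) :
    Matrix (ι × Q) (ι × Q) F :=
  Matrix.of fun p q => if q.2 = a.right⁻¹ * p.2 then ρ (a.left p.2) p.1 q.1 else 0

theorem L2mat_apply {D : Type u} {Q : Type v} [Group D] [Group Q] [DecidableEq Q]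
    {ι : Type v} {F : Type w} [Field F] (ρ : D → Matrix ι ι F) (a : D ≀ᵣ Q) (i j : ι) (x y : Q) :
    L2mat ρ a (i, x) (j, y) = if y = a.right⁻¹ * x then ρ (a.left x) i j else 0 := rfl

/-- the monomial representation of the wreath product -/
def L2hom {D : Type u} {Q : Type v} [Group D] [Group Q] [Fintype Q] [DecidableEq Q]
    {ι : Type v} [Fintype ι] [DecidableEq ι] {F : Type w} [Field F]
    (ρ : D →* Matrix ι ι F) : (D ≀ᵣ Q) →* Matrix (ι × Q) (ι × Q) F where
  toFun a := L2mat ρ a
  map_one' := by
    ext ⟨i, x⟩ ⟨j, y⟩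
    rw [L2mat_apply]
    by_cases hxy : y = x
    · subst hxy
      by_cases hij : i = j
      · subst hij; simp
      · simp [hij, Matrix.one_apply]
    · have : (i, x) ≠ (j, y) := fun h => hxy (Prod.mk.inj h).2.symm
      simp [hxy, Matrix.one_apply, this]
  map_mul' a b := by
    ext ⟨i, x⟩ ⟨k, z⟩
    rw [Matrix.mul_apply, Fintype.sum_prod_type]
    simp only [L2mat_apply, ite_mul, zero_mul, Finset.sum_ite_eq', Finset.mem_univ, if_true,
      RegularWreathProduct.mul_right, RegularWreathProduct.mul_left, Pi.mul_apply, map_mul,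
      mul_inv_rev, mul_assoc]
    by_cases hz : z = b.right⁻¹ * (a.right⁻¹ * x)
    · simp [hz, Matrix.mul_apply]
    · simp [hz]

/-- L2 (with `[Nonempty ι]`; the statement is false for empty `ι` and nontrivial `Q`) -/
theorem wreath_step {D : Type u} {Q : Type v} [Group D] [Group Q] [Fintype Q] [DecidableEq Q]
    {ι : Type v} [Fintype ι] [DecidableEq ι] [Nonempty ι] {F : Type w} [Field F]
    (J₀ : Matrix ι ι F)
    (ρ : D →* Matrix ι ι F) (hρ : Injective ρ) (hJ : ∀ d, ρ d * J₀ * (ρ d).transpose = J₀) :
    ∃ M : (D ≀ᵣ Q) →* Matrix (ι × Q) (ι × Q) F, Injective M ∧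
      ∀ x, M x * Matrix.blockDiagonal (fun _ : Q => J₀) * (M x).transpose
        = Matrix.blockDiagonal (fun _ : Q => J₀) := by
  refine ⟨L2hom ρ, ?_, ?_⟩
  · intro a b hab
    have hab' : ∀ i x j y, L2mat ρ a (i, x) (j, y) = L2mat ρ b (i, x) (j, y) := by
      intro i x j y
      have : L2mat ρ a = L2mat ρ b := hab
      rw [this]
    have hne : ∀ d : D, ∃ i j, ρ d i j ≠ 0 := by
      intro d
      by_contra hcon
      push Not at hcon
      have h0 : ρ d = 0 := by ext i j; simpa using hcon i j
      have h1 : (1 : Matrix ι ι F) = 0 := by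
        rw [← map_one ρ, ← inv_mul_cancel d, map_mul, h0, mul_zero]
      exact one_ne_zero h1
    have hr : a.right = b.right := by
      obtain ⟨i, j, hij⟩ := hne (a.left 1)
      have h1 := hab' i 1 j (a.right⁻¹ * 1)
      rw [L2mat_apply, L2mat_apply, if_pos rfl] at h1
      by_contra hcon
      have h2 : ¬ (a.right⁻¹ * 1 = b.right⁻¹ * 1) := by
        intro h; apply hcon; simpa using h
      rw [if_neg h2] at h1
      exact hij h1
    ext x
    · apply hρ
      ext i j
      have h1 := hab' i x j (a.right⁻¹ * x)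
      rw [L2mat_apply, L2mat_apply, if_pos rfl, hr, if_pos rfl] at h1
      exact h1
    · exact hr
  · intro a
    have h1 : ∀ i x l u, (L2mat ρ a * Matrix.blockDiagonal (fun _ : Q => J₀)) (i, x) (l, u)
        = if u = a.right⁻¹ * x then (ρ (a.left x) * J₀) i l else 0 := by
      intro i x l u
      rw [Matrix.mul_apply, Fintype.sum_prod_type]
      simp only [L2mat_apply, Matrix.blockDiagonal_apply, ite_mul, zero_mul, Finset.sum_ite_eq',
        Finset.mem_univ, if_true]
      by_cases hu : u = a.right⁻¹ * x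
      · simp [hu, Matrix.mul_apply]
      · simp [hu, Ne.symm hu]
    show L2mat ρ a * Matrix.blockDiagonal (fun _ : Q => J₀) * (L2mat ρ a).transpose = _
    ext ⟨i, x⟩ ⟨k, z⟩
    rw [Matrix.mul_apply, Fintype.sum_prod_type]
    simp only [h1, Matrix.transpose_apply, L2mat_apply, ite_mul, zero_mul, Finset.sum_ite_eq',
      Finset.mem_univ, if_true, Matrix.blockDiagonal_apply]
    by_cases hxz : x = z
    · subst hxz
      simp only [if_true]
      have := congrFun (congrFun (hJ (a.left x)) i) k
      rw [Matrix.mul_apply] at this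
      simpa [Matrix.transpose_apply] using this
    · simp [hxz]

end Cfsg.Agent.Lib.DLS
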