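import Mathlib
import Cfsg.Agent.Lib.Helper36.DLS.L2

set_option autoImplicit false

namespace Cfsg.Agent.Lib.DLS
open Module Function

universe u v w

theorem S1_J {Q : Type v} [Fintype Q] [DecidableEq Q] {α : Type v} [Fintype α] [DecidableEq α]
    {F : Type w} [Field F] :
    (Matrix.blockDiagonal (fun _ : Q => Matrix.J α F)).submatrix
      (Equiv.sumProdDistrib α α Q).symm (Equiv.sumProdDistrib α α Q).symm = Matrix.J (α × Q) F := by
  ext p q
  rcases p with ⟨a, x⟩ | ⟨a, x⟩ <;> rcases q with ⟨b, y⟩ | ⟨b, y⟩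
  · simp [Matrix.J, Matrix.blockDiagonal_apply]
  · by_cases hxy : x = y <;> by_cases hab : a = b <;>
      simp [Matrix.J, Matrix.blockDiagonal_apply, hxy, hab]
  · by_cases hxy : x = y <;> by_cases hab : a = b <;>
      simp [Matrix.J, Matrix.blockDiagonal_apply, hxy, hab]
  · simp [Matrix.J, Matrix.blockDiagonal_apply]

/-- S1 (with `[Nonempty α]`) -/
theorem sp_wreath {D : Type u} [Group D] {Q : Type v} [Group Q] [Fintype Q] [DecidableEq Q]
    {α : Type v} [Fintype α] [DecidableEq α] [Nonempty α] {F : Type w} [Field F]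
    (ρ : D →* Matrix.symplecticGroup α F) (hρ : Injective ρ) :
    ∃ ρ' : (D ≀ᵣ Q) →* Matrix.symplecticGroup (α × Q) F, Injective ρ' := by
  obtain ⟨M, hM, hMJ⟩ := wreath_step (Q := Q) (Matrix.J α F)
    ((Matrix.symplecticGroup α F).subtype.comp ρ)
    (fun a b h => hρ (Subtype.ext h))
    (fun d => SymplecticGroup.mem_iff.1 (ρ d).2)
  set e := (Equiv.sumProdDistrib α α Q) with he
  refine ⟨{ toFun := fun x => ⟨(M x).submatrix e.symm e.symm, ?_⟩
            map_one' := ?_
            map_mul' := ?_ }, ?_⟩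
  · rw [SymplecticGroup.mem_iff, ← S1_J, Matrix.transpose_submatrix,
      Matrix.submatrix_mul_equiv, Matrix.submatrix_mul_equiv, hMJ]
  · apply Subtype.ext
    simp
  · intro a b
    apply Subtype.ext
    simp [Matrix.submatrix_mul_equiv]
  · intro a b hab
    apply hM
    have h1 : (M a).submatrix e.symm e.symm = (M b).submatrix e.symm e.symm :=
      congrArg Subtype.val hab
    ext p q
    have := congrFun (congrFun h1 (e p)) (e q)
    simpa using this

end Cfsg.Agent.Lib.DLS
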