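import Mathlib

set_option autoImplicit false

namespace Cfsg.Agent.Lib.DLS
open Module Function

universe u v w

/-- the reindexing `β ⊕ β ≃ (α ⊕ α) ⊕ (γ ⊕ γ)` -/
def S2e {α : Type u} {β : Type v} {γ : Type v} (e1 : β ≃ α ⊕ γ) : β ⊕ β ≃ (α ⊕ α) ⊕ (γ ⊕ γ) :=
  (Equiv.sumCongr e1 e1).trans (Equiv.sumSumSumComm α γ α γ)

theorem S2_J {α : Type u} {β : Type v} {γ : Type v} [DecidableEq α] [DecidableEq β]
    [DecidableEq γ] {F : Type w} [Field F] (e1 : β ≃ α ⊕ γ) :
    (Matrix.fromBlocks (Matrix.J α F) 0 0 (Matrix.J γ F)).submatrix (S2e e1) (S2e e1)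
      = Matrix.J β F := by
  ext p q
  rcases p with b | b <;> rcases q with c | c <;>
  obtain ⟨s, rfl⟩ := e1.symm.surjective b <;> obtain ⟨t, rfl⟩ := e1.symm.surjective c <;>
  rcases s with s | s <;> rcases t with t | t <;>
  simp [S2e, Matrix.J, Matrix.one_apply]

/-- S2 -/
theorem sp_pad {α : Type u} {β : Type v} [Fintype α] [DecidableEq α] [Fintype β] [DecidableEq β]
    {F : Type w} [Field F] (h : Fintype.card α ≤ Fintype.card β) :
    ∃ φ : Matrix.symplecticGroup α F →* Matrix.symplecticGroup β F, Injective φ := by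
  classical
  obtain ⟨f⟩ := Function.Embedding.nonempty_of_card_le h
  let γ : Type v := ↥(Set.range f)ᶜ
  let e1 : β ≃ α ⊕ γ :=
    ((Equiv.sumCongr (Equiv.ofInjective f f.injective) (Equiv.refl γ)).trans
      (Equiv.Set.sumCompl (Set.range f))).symm
  have : Fintype γ := Fintype.ofFinite γ
  set e := S2e e1 with he
  refine ⟨{ toFun := fun A => ⟨(Matrix.fromBlocks (A : Matrix (α ⊕ α) (α ⊕ α) F) 0 0
              (1 : Matrix (γ ⊕ γ) (γ ⊕ γ) F)).submatrix e e, ?_⟩
            map_one' := ?_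
            map_mul' := ?_ }, ?_⟩
  · rw [SymplecticGroup.mem_iff, ← S2_J e1, Matrix.transpose_submatrix,
      Matrix.submatrix_mul_equiv, Matrix.submatrix_mul_equiv, Matrix.fromBlocks_transpose,
      Matrix.fromBlocks_multiply, Matrix.fromBlocks_multiply]
    simp [SymplecticGroup.mem_iff.1 A.2, he]
  · apply Subtype.ext
    simp
  · intro A B
    apply Subtype.ext
    simp [Matrix.submatrix_mul_equiv, Matrix.fromBlocks_multiply]
  · intro A B hAB
    apply Subtype.ext
    have h1 : (Matrix.fromBlocks (A : Matrix (α ⊕ α) (α ⊕ α) F) 0 0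
        (1 : Matrix (γ ⊕ γ) (γ ⊕ γ) F)).submatrix e e =
        (Matrix.fromBlocks (B : Matrix (α ⊕ α) (α ⊕ α) F) 0 0
        (1 : Matrix (γ ⊕ γ) (γ ⊕ γ) F)).submatrix e e := congrArg Subtype.val hAB
    ext p q
    have := congrFun (congrFun h1 (e.symm (Sum.inl p))) (e.symm (Sum.inl q))
    simpa using this

end Cfsg.Agent.Lib.DLS
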