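import Mathlib

set_option autoImplicit false

namespace Cfsg.Agent.Lib.DLS
open Module Function

universe u v w

/-- U3 -/
theorem exists_irred {K : Type w} [Field K] {P : Type u} [Group P] [Finite P] {V : Type v}
    [AddCommGroup V] [Module K V] [FiniteDimensional K V] (ρ : P →* Module.End K V)
    (N : Subgroup P) [N.Normal] (hN : (Nat.card N : K) ≠ 0) (d₀ : P) (hd₀ : d₀ ∈ N)
    (hne : ρ d₀ ≠ 1) :
    ∃ U : Submodule K V, (∀ g, ∀ y ∈ U, ρ g y ∈ U) ∧
      (∀ U' : Submodule K V, U' ≤ U → (∀ g, ∀ y ∈ U', ρ g y ∈ U') → U' = ⊥ ∨ U' = U) ∧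
      ∃ d ∈ N, ∃ y ∈ U, ρ d y ≠ y := by
  classical
  have : Fintype N := Fintype.ofFinite N
  set S : Module.End K V := ∑ d : N, ρ (d : P) with hS
  have hSg : ∀ g : P, S * ρ g = ρ g * S := by
    intro g
    rw [hS, Finset.sum_mul, Finset.mul_sum]
    rw [← Equiv.sum_comp (MulAut.conjNormal g : N ≃* N).toEquiv]
    apply Finset.sum_congr rfl
    intro d _
    rw [← map_mul, ← map_mul]
    congr 1
    simp [MulAut.conjNormal_apply]
  have hSd : S * ρ d₀ = S := by
    rw [hS, Finset.sum_mul]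
    rw [← Equiv.sum_comp (Equiv.mulRight (⟨d₀, hd₀⟩ : N)) (fun d : N => ρ (d : P))]
    apply Finset.sum_congr rfl
    intro d _
    rw [← map_mul]
    rfl
  set V' : Submodule K V := LinearMap.ker S with hV'
  have hV'inv : ∀ g, ∀ y ∈ V', ρ g y ∈ V' := by
    intro g y hy
    rw [hV', LinearMap.mem_ker] at hy ⊢
    have := congrArg (fun f : Module.End K V => f y) (hSg g)
    simp only [Module.End.mul_apply] at this
    rw [this, hy, map_zero]
  have hV'ne : V' ≠ ⊥ := by
    obtain ⟨v, hv⟩ : ∃ v, ρ d₀ v ≠ v := by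
      by_contra hcon
      push Not at hcon
      exact hne (by ext v; simpa using hcon v)
    intro hbot
    have h1 : ρ d₀ v - v ∈ V' := by
      rw [hV', LinearMap.mem_ker, map_sub]
      have := congrArg (fun f : Module.End K V => f v) hSd
      simp only [Module.End.mul_apply] at this
      rw [this, sub_self]
    rw [hbot, Submodule.mem_bot, sub_eq_zero] at h1
    exact hv h1
  let 𝒮 : Set (Submodule K V) := {U | U ≠ ⊥ ∧ U ≤ V' ∧ ∀ g, ∀ y ∈ U, ρ g y ∈ U}
  have h𝒮 : 𝒮.Nonempty := ⟨V', hV'ne, le_rfl, hV'inv⟩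
  obtain ⟨U, ⟨hU0, hUV, hUinv⟩, hmin⟩ :=
    (wellFounded_lt (α := Submodule K V)).has_min 𝒮 h𝒮
  refine ⟨U, hUinv, ?_, ?_⟩
  · intro U' hle hinv
    by_cases h0 : U' = ⊥
    · exact Or.inl h0
    · right
      have := hmin U' ⟨h0, hle.trans hUV, hinv⟩
      exact eq_of_le_of_not_lt hle this
  · by_contra hcon
    push Not at hcon
    obtain ⟨y, hy, hy0⟩ := Submodule.exists_mem_ne_zero_of_ne_bot hU0
    have h1 : S y = 0 := hUV hy
    rw [hS, LinearMap.sum_apply] at h1
    have h2 : ∑ d : N, ρ (d : P) y = (Nat.card N : K) • y := by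
      rw [Finset.sum_congr rfl (fun (d : N) _ => hcon (d : P) d.2 y hy), Finset.sum_const,
        Finset.card_univ, Nat.card_eq_fintype_card, Nat.cast_smul_eq_nsmul]
    rw [h2] at h1
    rcases smul_eq_zero.1 h1 with h3 | h3
    · exact hN h3
    · exact hy0 h3

end Cfsg.Agent.Lib.DLS
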