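import Mathlib
import Cfsg.Agent.Lib.Helper79.LinPGroup

set_option autoImplicit false

namespace Cfsg.Agent.Lib.DLS
open Module Function

universe u v w

/-- U4 -/
theorem exists_scalar {K : Type w} [Field K] [IsAlgClosed K] (p : ℕ) [Fact p.Prime]
    {P : Type u} [Group P] [Finite P] (hP : IsPGroup p P) {V : Type v}
    [AddCommGroup V] [Module K V] [FiniteDimensional K V] (ρ : P →* Module.End K V)
    (U : Submodule K V) (hU : ∀ g, ∀ y ∈ U, ρ g y ∈ U)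
    (hirr : ∀ U' : Submodule K V, U' ≤ U → (∀ g, ∀ y ∈ U', ρ g y ∈ U') → U' = ⊥ ∨ U' = U)
    (g₀ : P) (y₀ : V) (hy₀ : y₀ ∈ U) (hg₀ : ρ g₀ y₀ ≠ y₀) :
    ∃ (z : P) (ζ : K), ζ ≠ 1 ∧ ∀ y ∈ U, ρ z y = ζ • y := by
  classical
  set r := Cfsg.Agent.Lib.Helper79.LPG.resU ρ U hU with hr
  have hrv : ∀ (x : P) (y : U), ((r x) y : V) = ρ x y := fun x y => rfl
  set N₀ : Subgroup P := r.ker with hN₀
  have hg₀N : g₀ ∉ N₀ := by
    intro h
    rw [hN₀, MonoidHom.mem_ker] at h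
    apply hg₀
    have := hrv g₀ ⟨y₀, hy₀⟩
    rw [h] at this
    exact this.symm
  have hnt : Nontrivial (P ⧸ N₀) := by
    refine ⟨⟨(g₀ : P ⧸ N₀), 1, ?_⟩⟩
    rw [Ne, QuotientGroup.eq_one_iff]
    exact hg₀N
  have hPq : IsPGroup p (P ⧸ N₀) := hP.to_quotient N₀
  have hcn : Nontrivial (Subgroup.center (P ⧸ N₀)) := hPq.center_nontrivial
  obtain ⟨⟨zb, hzb⟩, hzb1⟩ := exists_ne (1 : Subgroup.center (P ⧸ N₀))
  obtain ⟨z, rfl⟩ := QuotientGroup.mk_surjective zb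
  have hzN : z ∉ N₀ := by
    intro h
    apply hzb1
    apply Subtype.ext
    exact (QuotientGroup.eq_one_iff z).2 h
  have hcomm : ∀ g : P, r (z * g) = r (g * z) := by
    intro g
    have h1 : ((g : P ⧸ N₀)) * (z : P ⧸ N₀) = (z : P ⧸ N₀) * (g : P ⧸ N₀) :=
      Subgroup.mem_center_iff.1 hzb g
    rw [← QuotientGroup.mk_mul, ← QuotientGroup.mk_mul, QuotientGroup.eq, hN₀,
      MonoidHom.mem_ker] at h1
    have h2 : r (z * g) = r (g * z) * r ((g * z)⁻¹ * (z * g)) := by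
      rw [← map_mul]; congr 1; group
    rw [h2, h1, mul_one]
  have hcommv : ∀ (g : P) (y : V), y ∈ U → ρ z (ρ g y) = ρ g (ρ z y) := by
    intro g y hy
    have h1 := congrArg (fun f : Module.End K U => ((f ⟨y, hy⟩ : U) : V)) (hcomm g)
    simpa [hrv, map_mul] using h1
  have hy₀0 : y₀ ≠ 0 := by
    rintro rfl
    exact hg₀ (map_zero _)
  have hntU : Nontrivial U := ⟨⟨⟨y₀, hy₀⟩, 0, fun h => hy₀0 (congrArg Subtype.val h)⟩⟩
  obtain ⟨ζ, hζ⟩ := Module.End.exists_eigenvalue (r z)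
  obtain ⟨w, hw⟩ := hζ.exists_hasEigenvector
  have hw1 : ρ z (w : V) = ζ • (w : V) := by
    have := congrArg Subtype.val hw.apply_eq_smul
    simpa [hrv] using this
  have hw0 : (w : V) ≠ 0 := fun h => hw.2 (Subtype.ext h)
  set U' : Submodule K V := U ⊓ LinearMap.ker (ρ z - ζ • (1 : Module.End K V)) with hU'
  have hmem : ∀ y, y ∈ U' ↔ y ∈ U ∧ ρ z y = ζ • y := by
    intro y
    rw [hU', Submodule.mem_inf, LinearMap.mem_ker]
    simp [sub_eq_zero]
  have hUU : U' = U := by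
    rcases hirr U' inf_le_left (by
      intro g y hy
      rw [hmem] at hy ⊢
      exact ⟨hU g y hy.1, by rw [hcommv g y hy.1, hy.2, map_smul]⟩) with h | h
    · exfalso
      have : (w : V) ∈ U' := (hmem _).2 ⟨w.2, hw1⟩
      rw [h, Submodule.mem_bot] at this
      exact hw0 this
    · exact h
  have hall : ∀ y ∈ U, ρ z y = ζ • y := by
    intro y hy
    have hy' : y ∈ U' := by rw [hUU]; exact hy
    exact ((hmem y).1 hy').2
  refine ⟨z, ζ, ?_, hall⟩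
  intro hζ1
  apply hzN
  rw [hN₀, MonoidHom.mem_ker]
  ext y
  rw [hrv, hall _ y.2, hζ1, one_smul]
  rfl

end Cfsg.Agent.Lib.DLS
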